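import Mathlib
import Cfsg.Agent.PGroup.Frattini
import Cfsg.Agent.PGroup.Basic

/-!
# Derived length of `p`-groups of linear maps in coprime characteristic
-/

set_option autoImplicit false

namespace Cfsg.Agent.GLDerived

open Module

universe u v w

variable {F : Type w} [Field F] [Fintype F] {p : ℕ} [Fact p.Prime]

theorem derivedSeries_succ_le {Q : Type*} [Group Q] {H : Subgroup Q} (h : commutator Q ≤ H) (k : ℕ) :
    derivedSeries Q (k + 1) ≤ (derivedSeries H k).map H.subtype := by
  induction k with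
  | zero => rw [derivedSeries_one, derivedSeries_zero, ← MonoidHom.range_eq_map, Subgroup.range_subtype]; exact h
  | succ k ih =>
    rw [derivedSeries_succ, derivedSeries_succ H k, Subgroup.map_commutator]
    exact Subgroup.commutator_mono ih ih

/-- An invariant subspace has an invariant complement. -/
theorem exists_complement {P : Type u} [Group P] [Finite P] {V : Type v} [AddCommGroup V] [Module F V]
    (hcard : (Nat.card P : F) ≠ 0) (ρ : P →* Module.End F V) (W : Submodule F V)
    (hW : ∀ g : P, ∀ w ∈ W, ρ g w ∈ W) :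
    ∃ U : Submodule F V, (∀ g : P, ∀ u ∈ U, ρ g u ∈ U) ∧ W ⊓ U = ⊥ ∧ W ⊔ U = ⊤ := by
  classical
  haveI := Fintype.ofFinite P
  obtain ⟨f0, hf0⟩ := LinearMap.exists_extend (LinearMap.id : W →ₗ[F] W)
  set f : Module.End F V := W.subtype.comp f0 with hf
  have hfW : ∀ v, f v ∈ W := fun v => (f0 v).2
  have hfid : ∀ v ∈ W, f v = v := fun v hv => congrArg Subtype.val (LinearMap.congr_fun hf0 ⟨v, hv⟩)
  set E : Module.End F V := (Nat.card P : F)⁻¹ • ∑ g : P, ρ g * f * ρ g⁻¹ with hE
  have hEv : ∀ v, E v = (Nat.card P : F)⁻¹ • ∑ g : P, ρ g (f (ρ g⁻¹ v)) := fun v => by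
    simp only [hE, LinearMap.smul_apply, LinearMap.sum_apply, Module.End.mul_apply]
  have hEW : ∀ v, E v ∈ W := fun v => by
    rw [hEv]; exact W.smul_mem _ (W.sum_mem fun g _ => hW g _ (hfW _))
  have hEid : ∀ v ∈ W, E v = v := fun v hv => by
    rw [hEv, Finset.sum_congr rfl (fun g _ => show ρ g (f (ρ g⁻¹ v)) = v by
      rw [hfid _ (hW _ _ hv), ← Module.End.mul_apply, ← map_mul, mul_inv_cancel, map_one, Module.End.one_apply]),
      Finset.sum_const, Finset.card_univ, ← Nat.cast_smul_eq_nsmul F, ← Nat.card_eq_fintype_card,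
      inv_smul_smul₀ hcard]
  have hEeq : ∀ h v, E (ρ h v) = ρ h (E v) := fun h v => by
    rw [hEv, hEv, map_smul, map_sum, ← Equiv.sum_comp (Equiv.mulLeft h)]
    refine congrArg _ (Finset.sum_congr rfl fun g _ => ?_)
    rw [Equiv.coe_mulLeft, mul_inv_rev, map_mul, map_mul, Module.End.mul_apply, Module.End.mul_apply]
    congr 4
    rw [← Module.End.mul_apply, ← map_mul, inv_mul_cancel, map_one, Module.End.one_apply]
  refine ⟨LinearMap.ker E, fun g u hu => ?_, ?_, ?_⟩
  · rw [LinearMap.mem_ker] at hu ⊢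
    rw [hEeq, hu, map_zero]
  · rw [eq_bot_iff]
    intro x hx
    obtain ⟨h1, h2⟩ := Submodule.mem_inf.1 hx
    rw [Submodule.mem_bot, ← hEid x h1]
    exact LinearMap.mem_ker.1 h2
  · rw [eq_top_iff]
    intro x _
    refine Submodule.mem_sup.2 ⟨E x, hEW x, x - E x, ?_, add_sub_cancel _ _⟩
    rw [LinearMap.mem_ker, map_sub, hEid _ (hEW x), sub_self]

/-- A nontrivial `p`-element needs dimension at least `e`. -/
theorem order_le_finrank {Q : Type u} [Group Q] [Finite Q] (hQ : IsPGroup p Q) {V : Type v}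
    [AddCommGroup V] [Module F V] [Finite V] (ρ : Q →* Module.End F V)
    (hpq : ¬ p ∣ Fintype.card F) {a : Q} (ha : ρ a ≠ 1) :
    orderOf (Fintype.card F : ZMod p) ≤ finrank F V := by
  let Fx : Submodule F V := LinearMap.ker (ρ a - 1)
  have hne : Fx ≠ ⊤ := fun h => ha (LinearMap.ext fun v =>
    sub_eq_zero.1 (LinearMap.mem_ker.1 (h ▸ Submodule.mem_top : v ∈ Fx)))
  letI : MulAction (Subgroup.zpowers a) V :=
    { smul := fun s v => ρ (s : Q) v
      one_smul := fun v => by show ρ ((1 : Subgroup.zpowers a) : Q) v = v; simp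
      mul_smul := fun s t v => by
        show ρ ((s * t : Subgroup.zpowers a) : Q) v = ρ s (ρ t v); simp }
  have hfix : MulAction.fixedPoints (Subgroup.zpowers a) V = (Fx : Set V) := by
    ext v
    rw [MulAction.mem_fixedPoints]
    constructor
    · intro h
      have := h ⟨a, Subgroup.mem_zpowers a⟩
      exact LinearMap.mem_ker.2 (sub_eq_zero.2 this)
    · intro h s
      obtain ⟨k, hk⟩ := mem_powers_iff_mem_zpowers.2 s.2
      show ρ (s : Q) v = v
      rw [← show a ^ k = s from hk, map_pow, Module.End.pow_apply]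
      exact Function.iterate_fixed (sub_eq_zero.1 (LinearMap.mem_ker.1 h)) k
  have hm := (hQ.to_subgroup (Subgroup.zpowers a)).card_modEq_card_fixedPoints V
  rw [hfix] at hm
  change Nat.card V ≡ Nat.card Fx [MOD p] at hm
  rw [Module.natCard_eq_pow_finrank (K := F), Module.natCard_eq_pow_finrank (K := F) (V := Fx),
    ← ZMod.natCast_eq_natCast_iff, Nat.cast_pow, Nat.cast_pow, Nat.card_eq_fintype_card] at hm
  have hlt : finrank F Fx < finrank F V := Submodule.finrank_lt hne
  have hq0 : (Fintype.card F : ZMod p) ≠ 0 := by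
    exact fun h => hpq ((ZMod.natCast_eq_zero_iff _ _).1 h)
  refine le_trans (Nat.le_of_dvd (by omega) (orderOf_dvd_of_pow_eq_one
    (n := finrank F V - finrank F Fx) ?_)) (Nat.sub_le _ _)
  rw [pow_sub₀ _ hq0 hlt.le, hm, mul_inv_cancel₀ (pow_ne_zero _ hq0)]

/-- The bound `⌊log₂ (n / e)⌋ + 1`. -/
def bound (e n : ℕ) : ℕ := Nat.log 2 (n / e) + 1

theorem bound_mono (e : ℕ) {m n : ℕ} (h : m ≤ n) : bound e m ≤ bound e n :=
  Nat.add_le_add_right (Nat.log_mono_right (Nat.div_le_div_right h)) 1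

theorem bound_succ_le {e w n : ℕ} (he : 0 < e) (hw : e ≤ w) (hn : 2 * w ≤ n) :
    bound e w + 1 ≤ bound e n := by
  have h1 : 0 < w / e := Nat.div_pos hw he
  have h2 : w / e * 2 ≤ n / e := by
    rw [Nat.le_div_iff_mul_le he]
    calc w / e * 2 * e = w / e * e * 2 := by ring
      _ ≤ w * 2 := Nat.mul_le_mul_right _ (Nat.div_mul_le_self w e)
      _ ≤ n := by omega
  have h3 := Nat.log_mono_right (b := 2) h2
  rw [Nat.log_mul_base one_lt_two h1.ne'] at h3
  unfold bound
  omega

end Cfsg.Agent.GLDerived
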