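import Cfsg.Agent.GLDerived.Basic

/-!
# Derived length of `p`-subgroups of `GL_n(F)`, `p` prime to `|F|`
-/

set_option autoImplicit false
set_option maxHeartbeats 800000

namespace Cfsg.Agent.GLDerived

open Module

universe u v w

variable {F : Type w} [Field F] [Fintype F] {p : ℕ} [Fact p.Prime]

/-- The field case: all elements permute a field generated by a self-centralising abelian subgroup. -/
theorem field_case {Q : Type u} [Group Q] [Finite Q] (hQ : IsPGroup p Q) {V : Type v} [AddCommGroup V]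
    [Module F V] [Finite V] [Nontrivial V] (ρ : Q →* Module.End F V) (hρ : Function.Injective ρ)
    (A : Subgroup Q) (hC : Subgroup.centralizer (A : Set Q) = A)
    (hAc : ∀ a ∈ A, ∀ b ∈ A, Commute a b)
    (K : Subalgebra F (Module.End F V)) (hAK : ∀ a ∈ A, ρ a ∈ K)
    (hK : ∀ x ∈ K, ∀ y ∈ K, x * y = y * x) (hinv : ∀ g : Q, ∀ x ∈ K, ρ g * x * ρ g⁻¹ ∈ K)
    (hunit : ∀ x ∈ K, x ≠ 0 → ∃ y ∈ K, x * y = 1)
    (hpq : ¬ p ∣ Fintype.card F) :
    derivedSeries Q (bound (orderOf (Fintype.card F : ZMod p)) (finrank F V)) = ⊥ := by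
  classical
  set e := orderOf (Fintype.card F : ZMod p) with he
  have hA2 : derivedSeries A 1 = ⊥ := by
    rw [derivedSeries_one]
    haveI : IsMulCommutative A := ⟨⟨fun a b => Subtype.ext (hAc a a.2 b b.2)⟩⟩
    rw [_root_.commutator_def, Subgroup.commutator_eq_bot_iff_le_centralizer]
    intro x _ y _
    exact Subtype.ext (hAc y y.2 x x.2)
  haveI : Finite (Module.End F V) := Module.finite_of_finite F
  let instC : CommRing K := { (inferInstance : Ring K) with
    mul_comm := fun x y => Subtype.ext (hK x x.2 y y.2) }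
  have hfield : IsField K :=
    { exists_pair_ne := ⟨0, 1, fun h => zero_ne_one (congrArg Subtype.val h : (0 : Module.End F V) = 1)⟩
      mul_comm := mul_comm
      mul_inv_cancel := fun {x} hx => by
        obtain ⟨y, hy, hxy⟩ := hunit x x.2 (fun h => hx (Subtype.ext h))
        exact ⟨⟨y, hy⟩, Subtype.ext hxy⟩ }
  letI : Field K := hfield.toField
  letI : Algebra F K := K.algebra
  haveI : Finite K := Subtype.finite
  have hinvv : ∀ g : Q, ρ g⁻¹ * ρ g = 1 := fun g => by rw [← map_mul, inv_mul_cancel, map_one]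
  let σ : Q → (K →ₐ[F] K) := fun g =>
    { toFun := fun x => ⟨ρ g * x * ρ g⁻¹, hinv g x x.2⟩
      map_one' := Subtype.ext (by simp [← map_mul])
      map_mul' := fun x y => Subtype.ext (by
        show ρ g * ((x : Module.End F V) * y) * ρ g⁻¹ = ρ g * x * ρ g⁻¹ * (ρ g * y * ρ g⁻¹)
        simp only [mul_assoc]
        rw [← mul_assoc (ρ g⁻¹) (ρ g), hinvv, one_mul])
      map_zero' := Subtype.ext (by simp)
      map_add' := fun x y => Subtype.ext (by simp [mul_add, add_mul])
      commutes' := fun c => Subtype.ext (by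
        show ρ g * algebraMap F (Module.End F V) c * ρ g⁻¹ = algebraMap F (Module.End F V) c
        rw [← Algebra.commutes c (ρ g), mul_assoc, ← map_mul, mul_inv_cancel, map_one, mul_one]) }
  let τ : Q →* (K ≃ₐ[F] K) := MonoidHom.mk'
    (fun g => AlgEquiv.ofBijective (σ g) (Finite.injective_iff_bijective.1 (σ g).toRingHom.injective))
    (fun g h => AlgEquiv.ext fun x => Subtype.ext (by
      show ρ (g * h) * x * ρ (g * h)⁻¹ = ρ g * (ρ h * x * ρ h⁻¹) * ρ g⁻¹
      rw [mul_inv_rev, map_mul, map_mul]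
      simp only [mul_assoc]))
  have hker : τ.ker ≤ A := by
    intro g hg
    rw [← hC, Subgroup.mem_centralizer_iff]
    intro a ha
    have h := congrArg Subtype.val (AlgEquiv.congr_fun (MonoidHom.mem_ker.1 hg) ⟨ρ a, hAK a ha⟩)
    change ρ g * ρ a * ρ g⁻¹ = ρ a at h
    rw [← map_mul, ← map_mul] at h
    exact (mul_inv_eq_iff_eq_mul.1 (hρ h)).symm
  haveI : IsCyclic (K ≃ₐ[F] K) := inferInstance
  have hcA : commutator Q ≤ A := by
    refine le_trans ?_ hker
    rw [_root_.commutator_def, Subgroup.commutator_le]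
    intro x _ y _
    rw [MonoidHom.mem_ker, map_commutatorElement, commutatorElement_eq_one_iff_mul_comm]
    letI := IsCyclic.commGroup (α := (K ≃ₐ[F] K))
    exact mul_comm _ _
  by_cases hAtop : A = ⊤
  · refine le_bot_iff.1 ((derivedSeries_antitone Q (show 1 ≤ bound e (finrank F V) by unfold bound; omega)).trans ?_)
    rw [derivedSeries_one, _root_.commutator_def, Subgroup.commutator_le]
    intro x _ y _
    rw [Subgroup.mem_bot, commutatorElement_eq_one_iff_mul_comm]
    exact hAc x (hAtop ▸ Subgroup.mem_top x) y (hAtop ▸ Subgroup.mem_top y)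
  -- a nontrivial Galois element
  have hd : p ∣ finrank F K := by
    rw [← IsGalois.card_aut_eq_finrank F K]
    obtain ⟨g, hg⟩ : ∃ g, g ∉ A := by
      by_contra hh
      push Not at hh
      exact hAtop ((Subgroup.eq_top_iff' A).2 hh)
    have hne : τ g ≠ 1 := fun h => hg (hker h)
    obtain ⟨k, hk⟩ := hQ g
    have hk' : τ g ^ p ^ k = 1 := by rw [← map_pow, hk, map_one]
    obtain ⟨i, -, hi⟩ := (Nat.dvd_prime_pow Fact.out).1 (orderOf_dvd_of_pow_eq_one hk')
    have hi0 : i ≠ 0 := fun h => hne (orderOf_eq_one_iff.1 (by rw [hi, h, pow_zero]))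
    exact (dvd_pow_self p hi0).trans (hi ▸ orderOf_dvd_natCard _)
  have hed : e ∣ finrank F K := by
    have hAne : A ≠ ⊥ := fun h => hAtop (by
      rw [← hC, h, eq_top_iff]
      intro x _
      rw [Subgroup.mem_centralizer_iff]
      intro y hy
      rw [Subgroup.mem_bot.1 hy, one_mul, mul_one])
    obtain ⟨⟨a, ha⟩, hao⟩ : ∃ a : A, orderOf a = p := by
      refine exists_prime_orderOf_dvd_card' (G := A) p ?_
      obtain ⟨k, hk⟩ := (hQ.to_subgroup A).exists_card_eq
      rw [hk]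
      refine dvd_pow_self p fun h0 => hAne (Subgroup.card_eq_one.1 (by rw [hk, h0, pow_zero]))
    have hu : (⟨ρ a, hAK a ha⟩ : K) ^ (p : ℕ) = 1 := by
      refine Subtype.ext ?_
      show ρ a ^ p = 1
      rw [← map_pow, ← hao, ← Subgroup.orderOf_coe, pow_orderOf_eq_one, map_one]
    have h1 : (⟨ρ a, hAK a ha⟩ : K) ≠ 1 := fun h => by
      have h3 : ρ a = 1 := congrArg Subtype.val h
      have h4 : (⟨a, ha⟩ : A) = 1 := Subtype.ext (hρ (h3.trans (map_one ρ).symm))
      rw [h4, orderOf_one] at hao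
      exact (Fact.out : p.Prime).ne_one hao.symm
    have ho := orderOf_eq_prime hu h1
    have h2 : p ∣ Nat.card K - 1 := by
      let u : Kˣ := Units.mk0 (⟨ρ a, hAK a ha⟩ : K) (fun h => by
        rw [h, zero_pow (Fact.out : p.Prime).ne_zero] at hu; exact zero_ne_one hu)
      have hu' : orderOf u = p := (orderOf_units (y := u)).symm.trans ho
      rw [← hu', ← Nat.card_units K]
      exact orderOf_dvd_natCard u
    rw [Module.natCard_eq_pow_finrank (K := F)] at h2
    refine orderOf_dvd_of_pow_eq_one ?_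
    have h5 := (Nat.modEq_iff_dvd' (Nat.one_le_pow _ _ Nat.card_pos)).2 h2
    rw [← ZMod.natCast_eq_natCast_iff, Nat.cast_one, Nat.cast_pow, Nat.card_eq_fintype_card] at h5
    exact h5.symm
  have hq0 : (Fintype.card F : ZMod p) ≠ 0 := fun h => hpq ((ZMod.natCast_eq_zero_iff _ _).1 h)
  have hedp : e ∣ p - 1 := orderOf_dvd_of_pow_eq_one (ZMod.pow_card_sub_one_eq_one hq0)
  have he0 : 0 < e := Nat.pos_of_dvd_of_pos hedp (Nat.sub_pos_of_lt (Fact.out : p.Prime).one_lt)
  have hepd : p * e ∣ finrank F K := by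
    refine Nat.Coprime.mul_dvd_of_dvd_of_dvd ?_ hd hed
    refine (Nat.Prime.coprime_iff_not_dvd Fact.out).2 fun h => ?_
    have := Nat.le_of_dvd (Nat.sub_pos_of_lt (Fact.out : p.Prime).one_lt) (h.trans hedp)
    have := (Fact.out : p.Prime).two_le
    omega
  have hKV : finrank F K ≤ finrank F V := by
    obtain ⟨v0, hv0⟩ := exists_ne (0 : V)
    refine LinearMap.finrank_le_finrank_of_injective
      (f := ((LinearMap.applyₗ v0).comp K.val.toLinearMap : K →ₗ[F] V)) ?_
    rw [← LinearMap.ker_eq_bot, eq_bot_iff]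
    intro x hx
    rw [LinearMap.mem_ker] at hx
    change (x : Module.End F V) v0 = 0 at hx
    rw [Submodule.mem_bot]
    by_contra hx0
    obtain ⟨y, hy, hxy⟩ := hunit x x.2 (fun h => hx0 (Subtype.ext h))
    apply hv0
    rw [← Module.End.one_apply (R := F) v0, ← hxy, hK x x.2 y hy, Module.End.mul_apply, hx, map_zero]
  have h2 : 2 ≤ bound e (finrank F V) := by
    have hpos : 0 < finrank F K := Module.finrank_pos
    have h3 := Nat.le_of_dvd hpos hepd
    have h4 : 2 ≤ finrank F V / e := by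
      rw [Nat.le_div_iff_mul_le he0]
      have := Nat.mul_le_mul_right e (Fact.out : p.Prime).two_le
      omega
    have := Nat.log_pos one_lt_two h4
    unfold bound
    omega
  refine le_bot_iff.1 ((derivedSeries_antitone Q h2).trans ((derivedSeries_succ_le hcA 1).trans ?_))
  rw [hA2, Subgroup.map_bot]

/-- The invariant-idempotent case. -/
theorem blocks_le {Q : Type u} [Group Q] [Finite Q] (hQ : IsPGroup p Q) {V : Type v} [AddCommGroup V]
    [Module F V] [Finite V] (ρ : Q →* Module.End F V)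
    (H : Subgroup Q) (hHc : IsCoatom H) (W : Submodule F V) (E : Module.End F V) (hEW : ∀ v, E v ∈ W)
    (hWE : ∀ v ∈ W, E v = v) (hconj : ∀ g ∉ H, E * (ρ g * E * ρ g⁻¹) = 0) (hH : H.index = p) :
    p * finrank F W ≤ finrank F V := by
  classical
  obtain ⟨g, hg⟩ : ∃ g, g ∉ H := by
    by_contra hh
    push Not at hh
    rw [(Subgroup.eq_top_iff' H).2 hh, Subgroup.index_top] at hH
    exact (Fact.out : p.Prime).ne_one hH.symm
  haveI : H.Normal := Cfsg.Agent.PGroup.normal_of_isCoatom hQ hHc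
  have hgo : orderOf (g : Q ⧸ H) = p := by
    refine orderOf_eq_prime ?_ (fun h => hg ((QuotientGroup.eq_one_iff g).1 h))
    rw [← hH, Subgroup.index]
    exact pow_card_eq_one'
  let f : (Fin p → W) →ₗ[F] V := ∑ i : Fin p, (ρ (g ^ (i : ℕ))).comp (W.subtype.comp (LinearMap.proj i))
  have hf : Function.Injective f := by
    rw [← LinearMap.ker_eq_bot, eq_bot_iff]
    intro w hw
    rw [LinearMap.mem_ker] at hw
    rw [Submodule.mem_bot]
    funext j
    have h1 := congrArg (ρ (g ^ (j : ℕ)) * E * ρ (g ^ (j : ℕ))⁻¹ : Module.End F V) hw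
    rw [map_zero, show f w = ∑ i : Fin p, ρ (g ^ (i : ℕ)) (w i : V) by
      simp [f, LinearMap.sum_apply], map_sum, Finset.sum_eq_single j (fun i _ hij => ?_)
      (fun h => absurd (Finset.mem_univ _) h)] at h1
    · rw [Module.End.mul_apply, Module.End.mul_apply, ← Module.End.mul_apply (ρ _⁻¹), ← map_mul,
        inv_mul_cancel, map_one, Module.End.one_apply, hWE _ (w j).2] at h1
      refine Subtype.ext ?_
      show ((w j : V)) = 0
      have := congrArg (ρ (g ^ (j : ℕ))⁻¹) h1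
      rwa [map_zero, ← Module.End.mul_apply, ← map_mul, inv_mul_cancel, map_one, Module.End.one_apply] at this
    · have hd : (g ^ (j : ℕ))⁻¹ * g ^ (i : ℕ) ∉ H := by
        rw [← QuotientGroup.eq, QuotientGroup.mk_pow, QuotientGroup.mk_pow]
        intro h
        exact hij (Fin.ext (pow_injOn_Iio_orderOf (by rw [hgo]; exact i.2) (by rw [hgo]; exact j.2) h.symm))
      have h2 := hconj _ hd
      rw [← hWE _ (w i).2]
      have h3 := congrArg (fun T : Module.End F V => ρ (g ^ (j : ℕ)) (T (ρ ((g ^ (j : ℕ))⁻¹ * g ^ (i : ℕ)) (w i : V)))) h2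
      simp only [Module.End.mul_apply, LinearMap.zero_apply, map_zero] at h3 ⊢
      rw [← Module.End.mul_apply (ρ _⁻¹) (ρ _), ← map_mul, inv_mul_cancel, map_one, Module.End.one_apply,
        map_mul, Module.End.mul_apply] at h3
      exact h3
  have := LinearMap.finrank_le_finrank_of_injective hf
  rwa [Module.finrank_pi_fintype, Finset.sum_const, Finset.card_univ, Fintype.card_fin, smul_eq_mul] at this

theorem derived_le (hpq : ¬ p ∣ Fintype.card F) (n : ℕ) : ∀ (P : Type v) [Group P] [Finite P],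
    IsPGroup p P → ∀ (V : Type v) [AddCommGroup V] [Module F V] [Finite V], finrank F V = n →
    ∀ ρ : P →* Module.End F V,
    ∀ x ∈ derivedSeries P (bound (orderOf (Fintype.card F : ZMod p)) n), ρ x = 1 := by
  induction n using Nat.strong_induction_on with
  | _ n ih =>
  intro P _ _ hP V _ _ _ hn ρ x hx
  classical
  set e := orderOf (Fintype.card F : ZMod p) with he
  haveI : Finite (Module.End F V) := Module.finite_of_finite F
  by_cases hred : ∃ W : Submodule F V, W ≠ ⊥ ∧ W ≠ ⊤ ∧ ∀ g : P, ∀ w ∈ W, ρ g w ∈ W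
  · obtain ⟨W, hW0, hW1, hW⟩ := hred
    have hcard : (Nat.card P : F) ≠ 0 := by
      obtain ⟨k, hk⟩ := hP.exists_card_eq
      rw [hk, Nat.cast_pow]
      refine pow_ne_zero _ fun h => hpq ?_
      exact ((CharP.cast_eq_zero_iff F (ringChar F) p).1 h |> fun h' =>
        (Nat.prime_dvd_prime_iff_eq (CharP.char_is_prime F (ringChar F)) Fact.out).1 h') ▸
        (by
          obtain ⟨m, hm⟩ := FiniteField.card F (ringChar F)
          rw [hm.2]
          exact dvd_pow_self _ m.ne_zero)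
    obtain ⟨U, hU, hWU, hWU'⟩ := exists_complement hcard ρ W hW
    have hlt : ∀ S : Submodule F V, S ≠ ⊤ → (hS : ∀ g : P, ∀ s ∈ S, ρ g s ∈ S) → ∀ s ∈ S, ρ x s = s := by
      intro S hS1 hS s hs
      have hfl : finrank F S < n := hn ▸ Submodule.finrank_lt hS1
      let r : P →* Module.End F S :=
        { toFun := fun g => (ρ g).restrict (hS g)
          map_one' := by ext; simp
          map_mul' := fun g h => by ext; simp }
      have := ih _ hfl P hP S rfl r x (derivedSeries_antitone P (bound_mono e hfl.le) hx)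
      exact congrArg Subtype.val (LinearMap.congr_fun this ⟨s, hs⟩)
    refine LinearMap.ext fun v => ?_
    obtain ⟨w, hw, u, hu, rfl⟩ := Submodule.mem_sup.1 (hWU' ▸ Submodule.mem_top : v ∈ W ⊔ U)
    rw [map_add, Module.End.one_apply, hlt W hW1 hW w hw, hlt U (fun h => hW0 (by rwa [h, inf_top_eq] at hWU)) hU u hu]
  rcases subsingleton_or_nontrivial V with hsV | hntV
  · exact LinearMap.ext fun v => Subsingleton.elim _ _
  push Not at hred
  -- pass to the image
  set Q := ρ.toHomUnits.range with hQdef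
  set ψ : Q →* Module.End F V := (Units.coeHom _).comp Q.subtype with hψ
  have hψi : Function.Injective ψ := fun a b h => Subtype.ext (Units.ext h)
  have hQp : IsPGroup p Q := hP.of_surjective ρ.toHomUnits.rangeRestrict ρ.toHomUnits.rangeRestrict_surjective
  have hlift : ∀ g : Q, ∃ g' : P, ψ g = ρ g' := by
    rintro ⟨_, g', rfl⟩; exact ⟨g', rfl⟩
  have hirr : ∀ W : Submodule F V, (∀ g : Q, ∀ w ∈ W, ψ g w ∈ W) → W ≠ ⊥ → W = ⊤ := by
    intro W hW hW0
    by_contra hW1
    obtain ⟨g, w, hw, hgw⟩ := hred W hW0 hW1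
    exact hgw (hW (ρ.toHomUnits.rangeRestrict g) w hw)
  suffices h : derivedSeries Q (bound e n) = ⊥ by
    have h1 := map_derivedSeries_le_derivedSeries ρ.toHomUnits.rangeRestrict (bound e n)
      (Subgroup.mem_map_of_mem _ hx)
    rw [h, Subgroup.mem_bot] at h1
    exact congrArg ψ h1
  obtain ⟨A, hAn, hAc', -, hC⟩ := Cfsg.Agent.PGroup.exists_self_centralizing_normal_abelian hQp
    (A := (⊥ : Subgroup Q)) inferInstance
  have hAc : ∀ a ∈ A, ∀ b ∈ A, Commute a b := fun a ha b hb =>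
    congrArg Subtype.val (hAc'.is_comm.comm ⟨a, ha⟩ ⟨b, hb⟩)
  set K := Algebra.adjoin F (ψ '' (A : Set Q)) with hKdef
  have hAK : ∀ a ∈ A, ψ a ∈ K := fun a ha => Algebra.subset_adjoin ⟨a, ha, rfl⟩
  have hK : ∀ x ∈ K, ∀ y ∈ K, x * y = y * x := by
    intro y hy z hz
    have h1 : ∀ a ∈ A, Commute (ψ a) y := by
      intro a ha
      refine Algebra.adjoin_induction (p := fun y _ => Commute (ψ a) y) ?_ ?_ ?_ ?_ hy
      · rintro _ ⟨b, hb, rfl⟩; exact (hAc a ha b hb).map ψ
      · exact fun c => (Algebra.commutes c (ψ a)).symm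
      · exact fun _ _ _ _ h1 h2 => h1.add_right h2
      · exact fun _ _ _ _ h1 h2 => h1.mul_right h2
    refine Algebra.adjoin_induction (p := fun z _ => Commute y z) ?_ ?_ ?_ ?_ hz
    · rintro _ ⟨b, hb, rfl⟩; exact (h1 b hb).symm
    · exact fun c => (Algebra.commutes c y).symm
    · exact fun _ _ _ _ h1 h2 => h1.add_right h2
    · exact fun _ _ _ _ h1 h2 => h1.mul_right h2
  have hψinv : ∀ g : Q, ψ g⁻¹ * ψ g = 1 := fun g => by rw [← map_mul, inv_mul_cancel, map_one]
  have hinv : ∀ g : Q, ∀ y ∈ K, ψ g * y * ψ g⁻¹ ∈ K := by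
    intro g y hy
    refine Algebra.adjoin_induction (p := fun y _ => ψ g * y * ψ g⁻¹ ∈ K) ?_ ?_ ?_ ?_ hy
    · rintro _ ⟨b, hb, rfl⟩
      rw [← map_mul, ← map_mul]
      exact hAK _ (hAn.conj_mem b hb g)
    · intro c
      rw [← Algebra.commutes c (ψ g), mul_assoc, ← map_mul, mul_inv_cancel, map_one, mul_one]
      exact K.algebraMap_mem c
    · intro y z _ _ h1 h2
      rw [mul_add, add_mul]; exact K.add_mem h1 h2
    · intro y z _ _ h1 h2
      have h3 := K.mul_mem h1 h2
      rw [show ψ g * y * ψ g⁻¹ * (ψ g * z * ψ g⁻¹) = ψ g * y * (ψ g⁻¹ * ψ g) * z * ψ g⁻¹ by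
        simp only [mul_assoc], hψinv, mul_one] at h3
      rwa [← mul_assoc]
  -- every element of `K` is fixed by a power of Frobenius
  obtain ⟨N, hN0, hN⟩ : ∃ N : ℕ, 2 ≤ N ∧ ∀ y ∈ K, y ^ N = y := by
    set r := ringChar F
    haveI : Fact r.Prime := ⟨CharP.char_is_prime F r⟩
    haveI : CharP (Module.End F V) r := charP_of_injective_algebraMap' F r
    obtain ⟨m, -, hm⟩ := FiniteField.card F r
    obtain ⟨k, hk⟩ := (hQp.to_subgroup A).exists_card_eq
    have hcop : Nat.Coprime (Fintype.card F) (p ^ k) :=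
      Nat.Coprime.pow_right k ((Nat.Prime.coprime_iff_not_dvd Fact.out).2 hpq).symm
    have ht : 0 < Nat.totient (p ^ k) := Nat.totient_pos.2 (pow_pos (Fact.out : p.Prime).pos k)
    set t := Nat.totient (p ^ k)
    have hq1 : 2 ≤ Fintype.card F := Fintype.one_lt_card
    refine ⟨Fintype.card F ^ t, hq1.trans (Nat.le_self_pow ht.ne' _), fun y hy => ?_⟩
    refine Algebra.adjoin_induction (p := fun y _ => y ^ Fintype.card F ^ t = y) ?_ ?_ ?_ ?_ hy
    · rintro _ ⟨b, hb, rfl⟩
      rw [← map_pow]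
      congr 1
      have hb1 : b ^ p ^ k = 1 := by
        have := congrArg Subtype.val (pow_card_eq_one' (G := A) (x := ⟨b, hb⟩))
        rwa [hk] at this
      rw [pow_eq_pow_mod _ hb1, Nat.ModEq.pow_totient hcop |>.trans rfl, ← pow_eq_pow_mod _ hb1, pow_one]
    · intro c
      rw [← map_pow, FiniteField.pow_card_pow]
    · intro y z hy' hz' h1 h2
      rw [hm, ← pow_mul] at h1 h2 ⊢
      rw [add_pow_char_pow_of_commute r _ (hK y hy' z hz'), h1, h2]
    · intro y z hy' hz' h1 h2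
      rw [Commute.mul_pow (hK y hy' z hz'), h1, h2]
  have hidem : ∀ y ∈ K, y ≠ 0 → y ^ (N - 1) * y ^ (N - 1) = y ^ (N - 1) ∧ y ^ (N - 1) ≠ 0 ∧
      y * y ^ (N - 2) = y ^ (N - 1) := by
    intro y hy hy0
    have h1 : y ^ (N - 1) * y ^ (N - 1) = y ^ N * y ^ (N - 2) := by
      rw [← pow_add, ← pow_add]; congr 1; omega
    have h2 : y * y ^ (N - 2) = y ^ (N - 1) := by
      rw [← pow_succ']; congr 1; omega
    refine ⟨by rw [h1, hN y hy, h2], fun h0 => hy0 ?_, h2⟩
    rw [← hN y hy, show N = N - 1 + 1 by omega, pow_succ, h0, zero_mul]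
  -- an idempotent of minimal rank
  obtain ⟨ε, ⟨hεK, hε0, hεi⟩, hεmin⟩ : ∃ ε, (ε ∈ K ∧ ε ≠ 0 ∧ ε * ε = ε) ∧
      ∀ f, (f ∈ K ∧ f ≠ 0 ∧ f * f = f) → finrank F (LinearMap.range ε) ≤ finrank F (LinearMap.range f) :=
    Set.exists_min_image {f | f ∈ K ∧ f ≠ 0 ∧ f * f = f} (fun f => finrank F (LinearMap.range f))
      (Set.toFinite _) ⟨1, K.one_mem, one_ne_zero, one_mul 1⟩
  have hminimal : ∀ f ∈ K, f * f = f → ε * f = 0 ∨ ε * f = ε := by
    intro f hf hff
    by_cases h0 : ε * f = 0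
    · exact Or.inl h0
    right
    have hi : ε * f * (ε * f) = ε * f := by
      rw [mul_assoc, ← mul_assoc f, hK f hf ε hεK, mul_assoc ε f, hff, ← mul_assoc, hεi]
    have hle : LinearMap.range (ε * f) ≤ LinearMap.range ε := LinearMap.range_comp_le_range f ε
    have heq := Submodule.eq_of_le_of_finrank_le hle (hεmin _ ⟨K.mul_mem hεK hf, h0, hi⟩)
    refine LinearMap.ext fun v => ?_
    obtain ⟨u, hu⟩ : ε v ∈ LinearMap.range (ε * f) := heq ▸ LinearMap.mem_range_self ε v
    have : (ε * f) (ε v) = ε v := by rw [← hu, ← Module.End.mul_apply, hi]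
    conv_rhs => rw [← this]
    rw [← Module.End.mul_apply, mul_assoc, hK f hf ε hεK, ← mul_assoc, hεi]
  set c : Q → Module.End F V := fun g => ψ g * ε * ψ g⁻¹ with hc
  have hcK : ∀ g, c g ∈ K := fun g => hinv g ε hεK
  have hci : ∀ g, c g * c g = c g := fun g => by
    show ψ g * ε * ψ g⁻¹ * (ψ g * ε * ψ g⁻¹) = ψ g * ε * ψ g⁻¹
    rw [show ψ g * ε * ψ g⁻¹ * (ψ g * ε * ψ g⁻¹) = ψ g * ε * (ψ g⁻¹ * ψ g) * ε * ψ g⁻¹ by
      simp only [mul_assoc], hψinv, mul_one, mul_assoc (ψ g), hεi]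
  have hcmul : ∀ g h, ψ g * c h * ψ g⁻¹ = c (g * h) := fun g h => by
    show ψ g * (ψ h * ε * ψ h⁻¹) * ψ g⁻¹ = ψ (g * h) * ε * ψ (g * h)⁻¹
    rw [mul_inv_rev, map_mul, map_mul]
    simp only [mul_assoc]
  have hc1 : c 1 = ε := by simp [hc]
  have horth : ∀ g h, c g = c h ∨ c g * c h = 0 := by
    intro g h
    suffices hh : ∀ g, c g = ε ∨ ε * c g = 0 by
      rcases hh (g⁻¹ * h) with h1 | h1
      · left
        have h2 := hcmul g (g⁻¹ * h)
        rw [mul_inv_cancel_left, h1, ← hc1, hcmul, mul_one] at h2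
        exact h2
      · right
        rw [← hcmul g 1 |>.trans (congrArg c (mul_one g)), ← mul_inv_cancel_left g h, ← hcmul g (g⁻¹ * h), hc1,
          show ψ g * ε * ψ g⁻¹ * (ψ g * c (g⁻¹ * h) * ψ g⁻¹) = ψ g * ε * (ψ g⁻¹ * ψ g) * c (g⁻¹ * h) * ψ g⁻¹ by
            simp only [mul_assoc], hψinv, mul_one, mul_assoc (ψ g), h1, mul_zero, zero_mul]
    intro g
    rcases hminimal (c g) (hcK g) (hci g) with h1 | h1
    · exact Or.inr h1
    left
    rcases hminimal (c g⁻¹) (hcK _) (hci _) with h2 | h2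
    · exfalso
      apply hε0
      have h3 := congrArg (fun y => ψ g * y * ψ g⁻¹) h2
      simp only [mul_zero, zero_mul] at h3
      rw [show ψ g * (ε * c g⁻¹) * ψ g⁻¹ = (ψ g * ε * ψ g⁻¹) * (ψ g * c g⁻¹ * ψ g⁻¹) by
        rw [show (ψ g * ε * ψ g⁻¹) * (ψ g * c g⁻¹ * ψ g⁻¹) = ψ g * ε * (ψ g⁻¹ * ψ g) * c g⁻¹ * ψ g⁻¹ by
          simp only [mul_assoc], hψinv, mul_one]
        simp only [mul_assoc], hcmul, mul_inv_cancel, hc1] at h3
      rw [← hK _ (hcK g) _ hεK] at h1
      exact h1.symm.trans h3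
    · have h3 := congrArg (fun y => ψ g * y * ψ g⁻¹) h2
      try simp only at h3
      rw [show ψ g * (ε * c g⁻¹) * ψ g⁻¹ = (ψ g * ε * ψ g⁻¹) * (ψ g * c g⁻¹ * ψ g⁻¹) by
        rw [show (ψ g * ε * ψ g⁻¹) * (ψ g * c g⁻¹ * ψ g⁻¹) = ψ g * ε * (ψ g⁻¹ * ψ g) * c g⁻¹ * ψ g⁻¹ by
          simp only [mul_assoc], hψinv, mul_one]
        simp only [mul_assoc], hcmul, mul_inv_cancel, hc1] at h3
      rw [← hK _ (hcK g) _ hεK] at h1
      exact h3.symm.trans h1
  let H₀ : Subgroup Q :=
    { carrier := {g | c g = ε}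
      one_mem' := hc1
      mul_mem' := fun {a b} ha hb => by
        show c (a * b) = ε
        rw [← hcmul, show c b = c 1 from hb.trans hc1.symm, hcmul, mul_one]; exact ha
      inv_mem' := fun {a} ha => by
        show c a⁻¹ = ε
        have h := hcmul a⁻¹ a
        rw [inv_mul_cancel, hc1, show c a = c 1 from ha.trans hc1.symm, hcmul, mul_one] at h
        exact h }
  have hAH₀ : A ≤ H₀ := fun a ha => by
    show ψ a * ε * ψ a⁻¹ = ε
    rw [hK _ (hAK a ha) _ hεK, mul_assoc, ← map_mul, mul_inv_cancel, map_one, mul_one]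
  by_cases hH₀ : H₀ = ⊤
  · -- a field
    have hεtop : LinearMap.range ε = ⊤ := by
      refine hirr _ (fun g => ?_) (fun h => hε0 (LinearMap.range_eq_bot.1 h))
      rintro _ ⟨v, rfl⟩
      have h : ψ g * ε * ψ g⁻¹ = ε := hH₀.ge (Subgroup.mem_top g)
      refine ⟨ψ g v, ?_⟩
      conv_lhs => rw [← h]
      rw [Module.End.mul_apply, Module.End.mul_apply, ← Module.End.mul_apply (ψ g⁻¹), hψinv, Module.End.one_apply]
    have hone : ∀ f ∈ K, f * f = f → f ≠ 0 → f = 1 := by
      intro f hf hff hf0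
      have h1 := hεmin f ⟨hf, hf0, hff⟩
      rw [hεtop, finrank_top] at h1
      have h2 : LinearMap.range f = ⊤ := Submodule.eq_top_of_finrank_eq (le_antisymm (Submodule.finrank_le _) h1)
      refine LinearMap.ext fun v => ?_
      obtain ⟨u, rfl⟩ := LinearMap.range_eq_top.1 h2 v
      rw [← Module.End.mul_apply, hff, Module.End.one_apply]
    rw [← hn]
    refine field_case hQp ψ hψi A hC hAc K hAK hK hinv (fun y hy hy0 => ?_) hpq
    obtain ⟨h1, h2, h3⟩ := hidem y hy hy0
    exact ⟨y ^ (N - 2), K.pow_mem hy _, h3.trans (hone _ (K.pow_mem hy _) h1 h2)⟩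
  -- blocks
  obtain ⟨H, hH, hH₀H⟩ : ∃ H : Subgroup Q, IsCoatom H ∧ H₀ ≤ H :=
    (eq_top_or_exists_le_coatom H₀).resolve_left hH₀
  have hHn := Cfsg.Agent.PGroup.normal_of_isCoatom hQp hH
  have hHi := Cfsg.Agent.PGroup.index_of_isCoatom hQp hH
  haveI := Fintype.ofFinite Q
  set O := (Finset.univ.filter (· ∈ H)).image c with hO
  set E := ∑ f ∈ O, f with hEdef
  have hcc : ∀ g h, g ∈ H → c h * c g = (if c h = c g then c g else 0) := by
    intro g h _
    split_ifs with he'
    · rw [he', hci]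
    · exact (horth h g).resolve_left he'
  have hEc : ∀ g ∈ H, E * c g = c g := by
    intro g hg
    rw [hEdef, Finset.sum_mul, Finset.sum_eq_single (c g)]
    · exact hci g
    · intro f hf hne
      obtain ⟨h, -, rfl⟩ := Finset.mem_image.1 hf
      exact (horth h g).resolve_left hne
    · exact fun h => absurd (Finset.mem_image.2 ⟨g, Finset.mem_filter.2 ⟨Finset.mem_univ _, hg⟩, rfl⟩) h
  have hE2 : E * E = E := by
    conv_lhs => arg 2; rw [hEdef]
    rw [Finset.mul_sum]
    refine Finset.sum_congr rfl fun f hf => ?_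
    obtain ⟨h, hh, rfl⟩ := Finset.mem_image.1 hf
    exact hEc h (Finset.mem_filter.1 hh).2
  have hEK : E ∈ K := K.sum_mem fun f hf => by
    obtain ⟨h, -, rfl⟩ := Finset.mem_image.1 hf; exact hcK h
  set W := LinearMap.range E with hWdef
  have hWE : ∀ v ∈ W, E v = v := by
    rintro _ ⟨u, rfl⟩; rw [← Module.End.mul_apply, hE2]
  have hEconj : ∀ g ∈ H, ψ g * E * ψ g⁻¹ = E := by
    intro g hg
    rw [hEdef, Finset.mul_sum, Finset.sum_mul]
    refine Finset.sum_nbij (fun f => ψ g * f * ψ g⁻¹) ?_ ?_ ?_ (fun f _ => rfl)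
    · intro f hf
      obtain ⟨h, hh, rfl⟩ := Finset.mem_image.1 hf
      rw [hcmul]
      exact Finset.mem_image.2 ⟨g * h, Finset.mem_filter.2 ⟨Finset.mem_univ _, H.mul_mem hg (Finset.mem_filter.1 hh).2⟩, rfl⟩
    · intro f₁ _ f₂ _ heq
      have := congrArg (fun y => ψ g⁻¹ * y * ψ g) heq
      simp only [← mul_assoc, hψinv, one_mul] at this
      rwa [mul_assoc, hψinv, mul_one, mul_assoc, hψinv, mul_one] at this
    · intro f hf
      obtain ⟨h, hh, rfl⟩ := Finset.mem_image.1 hf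
      refine ⟨c (g⁻¹ * h), Finset.mem_image.2 ⟨g⁻¹ * h, Finset.mem_filter.2 ⟨Finset.mem_univ _, H.mul_mem (H.inv_mem hg) (Finset.mem_filter.1 hh).2⟩, rfl⟩, ?_⟩
      show ψ g * c (g⁻¹ * h) * ψ g⁻¹ = c h
      rw [hcmul, mul_inv_cancel_left]
  have hEorth : ∀ g ∉ H, E * (ψ g * E * ψ g⁻¹) = 0 := by
    intro g hg
    conv_lhs => arg 2; rw [hEdef, Finset.mul_sum, Finset.sum_mul]
    rw [Finset.mul_sum]
    refine Finset.sum_eq_zero fun f hf => ?_
    obtain ⟨h', hh', rfl⟩ := Finset.mem_image.1 hf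
    rw [hcmul, hEdef, Finset.sum_mul]
    refine Finset.sum_eq_zero fun f hf => ?_
    obtain ⟨h, hh, rfl⟩ := Finset.mem_image.1 hf
    refine (horth h (g * h')).resolve_left fun heq => hg ?_
    have h1 : h⁻¹ * (g * h') ∈ H₀ := by
      show c (h⁻¹ * (g * h')) = ε
      rw [← hcmul, ← heq, hcmul, inv_mul_cancel, hc1]
    have h2 := H.mul_mem (H.mul_mem (Finset.mem_filter.1 hh).2 (hH₀H h1)) (H.inv_mem (Finset.mem_filter.1 hh').2)
    rwa [mul_inv_cancel_left, mul_inv_cancel_right] at h2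
  have hWinv : ∀ g ∈ H, ∀ v ∈ W, ψ g v ∈ W := by
    intro g hg v hv
    refine ⟨ψ g v, ?_⟩
    have h1 := congrArg (fun T : Module.End F V => T (ψ g v)) (hEconj g hg)
    simp only [Module.End.mul_apply] at h1
    rw [← Module.End.mul_apply (ψ g⁻¹), hψinv, Module.End.one_apply, hWE v hv] at h1
    exact h1.symm
  have hW0 : W ≠ ⊥ := by
    intro h
    have h0 : E = 0 := LinearMap.range_eq_bot.1 h
    have := hEc 1 H.one_mem
    rw [h0, zero_mul, hc1] at this
    exact hε0 this.symm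
  have hspan : ∀ T : Subgroup Q, T.Normal → (∀ t ∈ T, ∀ v ∈ W, ψ t v = v) → T = ⊥ := by
    intro T hT hfix
    have htop : (⨆ g : Q, W.map (ψ g)) = ⊤ := by
      refine hirr _ (fun g v hv => ?_) (fun h => hW0 (eq_bot_iff.2 ?_))
      · have hle : (⨆ h : Q, W.map (ψ h)) ≤ (⨆ h : Q, W.map (ψ h)).comap (ψ g) := by
          refine iSup_le fun h => ?_
          rintro _ ⟨w, hw, rfl⟩
          rw [Submodule.mem_comap, ← Module.End.mul_apply, ← map_mul]
          exact Submodule.mem_iSup_of_mem (g * h) ⟨w, hw, rfl⟩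
        exact hle hv
      · rw [← h]
        intro w hw
        exact Submodule.mem_iSup_of_mem 1 ⟨w, hw, by rw [map_one, Module.End.one_apply]⟩
    rw [eq_bot_iff]
    intro t ht
    rw [Subgroup.mem_bot]
    apply hψi
    rw [map_one, ← sub_eq_zero, ← LinearMap.ker_eq_top, eq_top_iff, ← htop]
    refine iSup_le fun g => ?_
    rintro _ ⟨w, hw, rfl⟩
    rw [LinearMap.mem_ker, LinearMap.sub_apply, Module.End.one_apply, sub_eq_zero,
      ← Module.End.mul_apply, ← map_mul, show t * g = g * (g⁻¹ * t * g) by group, map_mul,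
      Module.End.mul_apply, hfix _ (by simpa using hT.conj_mem t ht g⁻¹) w hw]
  let r : H →* Module.End F W :=
    { toFun := fun g => (ψ g).restrict (hWinv g g.2)
      map_one' := by ext; simp
      map_mul' := fun g h => by ext; simp }
  have hblocks := blocks_le hQp ψ H hH W E (fun v => LinearMap.mem_range_self E v) hWE hEorth hHi
  rw [hn] at hblocks
  have hAne : A ≠ ⊥ := fun h => by
    refine hH.1 (eq_top_iff.2 fun g _ => hH₀H (hAH₀ ?_))
    rw [← hC, h, Subgroup.mem_centralizer_iff]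
    intro y hy
    rw [Subgroup.mem_bot.1 hy, one_mul, mul_one]
  have hew : e ≤ finrank F W := by
    by_contra hlt
    apply hAne
    refine hspan A hAn fun a ha v hv => ?_
    by_contra hne
    refine hlt (order_le_finrank (hQp.to_subgroup H) r hpq (a := ⟨a, hH₀H (hAH₀ ha)⟩) fun h => hne ?_)
    exact congrArg Subtype.val (LinearMap.congr_fun h ⟨v, hv⟩)
  have hw2 : 2 * finrank F W ≤ n := (Nat.mul_le_mul_right _ (Fact.out : p.Prime).two_le).trans hblocks
  have he0 : 0 < e := by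
    rw [he, orderOf_pos_iff]
    exact isOfFinOrder_iff_pow_eq_one.2 ⟨p - 1, Nat.sub_pos_of_lt (Fact.out : p.Prime).one_lt,
      ZMod.pow_card_sub_one_eq_one fun h => hpq ((ZMod.natCast_eq_zero_iff _ _).1 h)⟩
  have hb := bound_succ_le he0 hew hw2
  have hcH : commutator Q ≤ H :=
    (Cfsg.Agent.PGroup.commutator_le_frattini hQp).trans (frattini_le_coatom hH)
  refine hspan _ (derivedSeries_normal Q _) fun t ht v hv => ?_
  obtain ⟨s, hs, rfl⟩ := derivedSeries_succ_le hcH _ (derivedSeries_antitone Q hb ht)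
  have h := ih _ (by omega) H (hQp.to_subgroup H) W rfl r s hs
  exact congrArg Subtype.val (LinearMap.congr_fun h ⟨v, hv⟩)

end Cfsg.Agent.GLDerived
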